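import Cfsg.Agent.H780.P9.CThree

/-!
# S5925, box H: the equations C3 for `D = e_0`, pairs `(0,1)`, `(1,2)`, when `q01 = q12 = q13 = q14 = 0` (helper455)
-/

set_option autoImplicit false
set_option linter.style.longLine false

namespace Cfsg.Agent.H455.P9
open Matrix Cfsg.Agent.H879.E83 Cfsg.Agent.H780.P9

section
variable {F : Type*} [Field F] {g : F} {q : Mt F}

theorem AA_val (q : Mt F) (j : Fin 5) :
    AA q 0 0 j = q 2 2 ^ 9 * q 0 j - q 2 0 ^ 9 * q 2 j ∧ AA q 0 1 j = q 1 2 ^ 9 * q 0 j - q 1 0 ^ 9 * q 2 j ∧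
      AA q 0 2 j = q 0 2 ^ 9 * q 0 j - q 0 0 ^ 9 * q 2 j ∧ AA q 0 3 j = -(q 4 2 ^ 9 * q 0 j - q 4 0 ^ 9 * q 2 j) ∧
      AA q 0 4 j = -(q 3 2 ^ 9 * q 0 j - q 3 0 ^ 9 * q 2 j) := by
  have s0 : sgm (0 : Fin 5) = 2 := by decide
  have s1 : sgm (1 : Fin 5) = 1 := by decide
  have s2 : sgm (2 : Fin 5) = 0 := by decide
  have s3 : sgm (3 : Fin 5) = 4 := by decide
  have s4 : sgm (4 : Fin 5) = 3 := by decide
  have j0 : Jv (0 : Fin 5) = (1 : F) := rfl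
  have j1 : Jv (1 : Fin 5) = (1 : F) := rfl
  have j2 : Jv (2 : Fin 5) = (1 : F) := rfl
  have j3 : Jv (3 : Fin 5) = (-1 : F) := rfl
  have j4 : Jv (4 : Fin 5) = (-1 : F) := rfl
  rw [AA_zero, AA_zero, AA_zero, AA_zero, AA_zero, s0, s1, s2, s3, s4, j0, j1, j2, j3, j4]
  refine ⟨?_, ?_, ?_, ?_, ?_⟩ <;> ring

theorem ZZ_vals (q : Mt F) :
    ZZ g q 0 0 1 = g ^ 50 * AA q 0 0 1 - g ^ 16 * (1 * -1) * AA q 0 2 3 ^ 3 ∧
      ZZ g q 0 2 1 = g ^ 70 * AA q 0 2 1 - g ^ 56 * (1 * -1) * AA q 0 0 4 ^ 3 ∧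
      ZZ g q 0 3 1 = 0 ∧ ZZ g q 0 4 1 = AA q 0 4 1 ∧
      ZZ g q 0 1 0 = g ^ 70 * AA q 0 1 0 - g ^ 64 * (-1 * 1) * AA q 0 3 2 ^ 3 ∧
      ZZ g q 0 1 2 = g ^ 50 * AA q 0 1 2 - g ^ 24 * (-1 * 1) * AA q 0 4 0 ^ 3 := by
  refine ⟨?_, ?_, ?_, ?_, ?_, ?_⟩
  · rw [ZZ, if_neg (by decide), if_pos (by decide)]; rfl
  · rw [ZZ, if_neg (by decide), if_neg (by decide), if_neg (by decide), if_neg (by decide)]; rfl
  · rw [ZZ, if_neg (by decide), if_neg (by decide), if_neg (by decide), if_pos (by decide)]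
  · rw [ZZ, if_neg (by decide), if_neg (by decide), if_pos (by decide)]; rfl
  · rw [ZZ, if_neg (by decide), if_neg (by decide), if_neg (by decide), if_neg (by decide)]; rfl
  · rw [ZZ, if_neg (by decide), if_pos (by decide)]; rfl

/-- `bar M30`, `bar M42`, `M30`, `M42` -/
def b30 (q : Mt F) : F := q 2 3 * q 0 0 ^ 9 - q 0 3 * q 0 2 ^ 9
def b42 (q : Mt F) : F := q 2 4 * q 0 2 ^ 9 - q 0 4 * q 2 2 ^ 9
def m30 (q : Mt F) : F := q 2 3 ^ 9 * q 0 0 - q 0 3 ^ 9 * q 0 2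
def m42 (q : Mt F) : F := q 2 4 ^ 9 * q 0 2 - q 0 4 ^ 9 * q 2 2

theorem c3z (h : PNine g q) (h3 : (3 : F) = 0) (h01 : q 0 1 = 0) (h12 : q 1 2 = 0) (h13 : q 1 3 = 0) (h14 : q 1 4 = 0) :
    q 0 0 * (g ^ 16 * b30 q ^ 3) + q 0 2 * (g ^ 56 * b42 q ^ 3) = g ^ 64 * q 1 1 * m42 q ^ 3 ∧
      g ^ 24 * q 1 1 * m30 q ^ 3 = q 0 2 * (g ^ 16 * b30 q ^ 3) + q 2 2 * (g ^ 56 * b42 q ^ 3) := by
  have hs : ∀ x y, q x y = q y x := fun x y => by conv_lhs => rw [← h.sym, Matrix.transpose_apply]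
  have e1 := h.c3s h3 0 0 1
  have e2 := h.c3s h3 0 1 2
  rw [Fin.sum_univ_five, Fin.sum_univ_five] at e1 e2
  obtain ⟨z01, z21, z31, z41, z10, z12⟩ := ZZ_vals (g := g) q
  have a0 := AA_val q
  have h10 : q 1 0 = 0 := by rw [hs, h01]
  have h21 : q 2 1 = 0 := by rw [hs, h12]
  have h31 : q 3 1 = 0 := by rw [hs, h13]
  have h41 : q 4 1 = 0 := by rw [hs, h14]
  rw [z01, z21, z31, z41, z10, (a0 1).1, (a0 1).2.2.1, (a0 1).2.2.2.2, (a0 0).2.1, (a0 3).2.2.1, (a0 4).1,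
    (a0 2).2.2.2.1, h01, h12, h13, h14, h10, h21, hs 2 0, hs 4 0, hs 4 2] at e1
  rw [z01, z21, z31, z41, z12, (a0 1).1, (a0 1).2.2.1, (a0 1).2.2.2.2, (a0 2).2.1, (a0 3).2.2.1, (a0 4).1,
    (a0 0).2.2.2.2, h01, h12, h13, h14, h10, h21, hs 2 0, hs 3 2, hs 3 0] at e2
  refine ⟨?_, ?_⟩
  · rw [b30, b42, m42]
    linear_combination -e1
  · rw [b30, b42, m30]
    linear_combination -e2

theorem sub_cube (h3 : (3 : F) = 0) (x y : F) : (x - y) ^ 3 = x ^ 3 - y ^ 3 := by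
  linear_combination (x * y ^ 2 - x ^ 2 * y) * h3

theorem sub_nine (h3 : (3 : F) = 0) (x y : F) : (x - y) ^ 9 = x ^ 9 - y ^ 9 := by
  have e : (x - y) ^ 9 = ((x - y) ^ 3) ^ 3 := by ring
  rw [e, sub_cube h3, sub_cube h3]
  ring

theorem m30_nine (h : PNine g q) (h3 : (3 : F) = 0) : m30 q ^ 9 = b30 q := by
  rw [m30, b30, sub_nine h3]
  have e1 := h.pow81 2 3
  have e2 := h.pow81 0 3
  linear_combination (q 0 0 ^ 9) * e1 - (q 0 2 ^ 9) * e2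

theorem m42_nine (h : PNine g q) (h3 : (3 : F) = 0) : m42 q ^ 9 = b42 q := by
  rw [m42, b42, sub_nine h3]
  have e1 := h.pow81 2 4
  have e2 := h.pow81 0 4
  linear_combination (q 0 2 ^ 9) * e1 - (q 2 2 ^ 9) * e2

end
end Cfsg.Agent.H455.P9
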