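import Cfsg.Agent.H455.P9.Blk
import Cfsg.Agent.H455.P9.C3z

/-!
# S5925, box H: the branch `q01 = q12 = q13 = q14 = 0`, sub-plans `plZ0c`, `plZ0b` (helper455)
-/

set_option autoImplicit false
set_option linter.style.longLine false

namespace Cfsg.Agent.H455.P9
open Matrix Cfsg.Agent.H879.E83 Cfsg.Agent.H780.P9

section
variable {F : Type*} [Field F] {g : F} {q p : Mt F} {m : F} {t : Fin 10 → F}

theorem wp_Z0c (c : Ctx g q p m t) (hpq : p = q) (h01 : p 0 1 = 0) (h12 : p 1 2 = 0) (h13 : p 1 3 = 0)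
    (h14 : p 1 4 = 0) (h : ∀ x y, WS3 g q p t x y) :
    WP g (Sol g q) plZ0c (K40 g p t (p 0 4) (p 2 3)) (LC p ++ [p 0 3, p 2 4]) := by
  have hc := c3z c.nine c.h3 (hpq ▸ h01) (hpq ▸ h12) (hpq ▸ h13) (hpq ▸ h14)
  have n30 := m30_nine c.nine c.h3
  have n42 := m42_nine c.nine c.h3
  rw [← hpq] at hc n30 n42
  have e30 : ((p 2 3 ^ 3) ^ 3) * p 0 0 - ((p 0 3 ^ 3) ^ 3) * p 0 2 = m30 p := by rw [m30]; ring
  have e42 : ((p 2 4 ^ 3) ^ 3) * p 0 2 - ((p 0 4 ^ 3) ^ 3) * p 2 2 = m42 p := by rw [m42]; ring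
  unfold plZ0c
  refine WP_df (x := p 0 3 * ((p 0 4) ^ 3) ^ 3) rfl ?_
  refine WP_df (x := p 2 3 * ((p 2 4) ^ 3) ^ 3) rfl ?_
  refine WP_df (x := m30 p) e30 ?_
  refine WP_df (x := m42 p) e42 ?_
  refine WP_df (x := m30 p ^ 3) rfl ?_
  refine WP_df (x := m42 p ^ 3) rfl ?_
  refine WP_df (x := g ^ 16 * b30 p ^ 3) ?_ ?_
  · show g ^ 16 * (((m30 p ^ 3) ^ 3) ^ 3) = _
    rw [← n30]
    ring
  refine WP_df (x := g ^ 56 * b42 p ^ 3) ?_ ?_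
  · show g ^ 56 * (((m42 p ^ 3) ^ 3) ^ 3) = _
    rw [← n42]
    ring
  refine WP_fl (ls' := [p 0 0, p 0 2, p 2 2, p 0 3, p 2 4]) ?_ rfl ?_
  · intro e he
    simp only [List.mem_cons, List.not_mem_nil, or_false] at he
    rcases he with rfl | rfl | rfl | rfl
    · show (p 0 1 * p 0 1 ^ 9 + (p 0 0 * p 0 2 ^ 9 + (p 0 0 * p 0 2 ^ 9) ^ 9)) -
        (p 0 3 * ((p 0 4) ^ 3) ^ 3 + ((p 0 3 * ((p 0 4) ^ 3) ^ 3) ^ 3) ^ 3) = 0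
      rw [ctx_e1 c]
      ring
    · show (p 1 2 * p 1 2 ^ 9 + (p 0 2 * p 2 2 ^ 9 + (p 0 2 * p 2 2 ^ 9) ^ 9)) -
        (p 2 3 * ((p 2 4) ^ 3) ^ 3 + ((p 2 3 * ((p 2 4) ^ 3) ^ 3) ^ 3) ^ 3) = 0
      rw [ctx_e4 c]
      ring
    · show (p 0 0 * (g ^ 16 * b30 p ^ 3) + p 0 2 * (g ^ 56 * b42 p ^ 3)) - g ^ 64 * p 1 1 * m42 p ^ 3 = 0
      rw [hc.1, sub_self]
    · show g ^ 24 * p 1 1 * m30 p ^ 3 - (p 0 2 * (g ^ 16 * b30 p ^ 3) + p 2 2 * (g ^ 56 * b42 p ^ 3)) = 0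
      rw [hc.2, sub_self]
  · refine WP_df (x := p 0 4) rfl ?_
    refine WP_df (x := p 2 3) rfl ?_
    refine WP_df (x := 0) rfl ?_
    refine WP_sel (ls' := LS3 q) ?_ (h _ _)
    show [p 0 0, p 0 2, p 2 2, p 0 3, p 2 3, 0, p 0 4, p 2 4, 0] = LS3 q
    rw [LS3, ← hpq, h13, h14]

/-- **`plZ0b`** -/
theorem wp_Z0b (c : Ctx g q p m t) (hpq : p = q) (h01 : p 0 1 = 0) (h12 : p 1 2 = 0) (h13 : p 1 3 = 0)
    (h14 : p 1 4 = 0) (h : ∀ x y, WS3 g q p t x y) :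
    WP g (Sol g q) plZ0b (K40 g p t (p 0 4) (p 2 3)) (LC p) := by
  have hc := wp_Z0c c hpq h01 h12 h13 h14 h
  show WP g (Sol g q) (PR 34 36 7 plZ0c) (K40 g p t (p 0 4) (p 2 3)) (LC p)
  refine wp_PR (x := p 0 3) (z := p 2 4) rfl (c.p81 0 3) (c.p81 2 4) ?_ ?_ hc
  · exact QQ03 p
  · rw [← QQ03]; rfl

end
end Cfsg.Agent.H455.P9
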