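import Cfsg.Agent.H780.P9.Iface

/-!
# S5925, box H: blocks for the WP lemmas (helper455)
-/

set_option autoImplicit false
set_option linter.style.longLine false

namespace Cfsg.Agent.H455.P9
open Matrix Cfsg.Agent.H879.E83 Cfsg.Agent.H780.P9

section
variable {F : Type*} [Field F] {g : F} {q p : Mt F} {m : F} {t : Fin 10 → F}

theorem QQ03 (p : Mt F) : QQ p 0 3 = p 0 3 * p 2 4 ^ 9 := by
  have s0 : sgm (0 : Fin 5) = 2 := by decide
  have s3 : sgm (3 : Fin 5) = 4 := by decide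
  rw [QQ, s0, s3]

theorem QQ04 (p : Mt F) : QQ p 0 4 = p 0 4 * p 2 3 ^ 9 := by
  have s0 : sgm (0 : Fin 5) = 2 := by decide
  have s4 : sgm (4 : Fin 5) = 3 := by decide
  rw [QQ, s0, s4]

theorem ctx_e1 (c : Ctx g q p m t) :
    p 0 1 * p 0 1 ^ 9 + (p 0 0 * p 0 2 ^ 9 + (p 0 0 * p 0 2 ^ 9) ^ 9) = p 0 3 * p 0 4 ^ 9 + (p 0 3 * p 0 4 ^ 9) ^ 9 := by
  have h := herm_exp' c.four.herm 0 0
  rw [if_neg (by decide), c.sym 1 0, c.sym 2 0, c.sym 3 0, c.sym 4 0] at h
  have h1 := c.p81 0 2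
  have h2 := c.p81 0 4
  linear_combination h + (p 0 0) ^ 9 * h1 - (p 0 3) ^ 9 * h2

theorem ctx_e4 (c : Ctx g q p m t) :
    p 1 2 * p 1 2 ^ 9 + (p 0 2 * p 2 2 ^ 9 + (p 0 2 * p 2 2 ^ 9) ^ 9) = p 2 3 * p 2 4 ^ 9 + (p 2 3 * p 2 4 ^ 9) ^ 9 := by
  have h := herm_exp' c.four.herm 2 2
  rw [if_neg (by decide), c.sym 2 1, c.sym 2 0, c.sym 3 2, c.sym 4 2] at h
  have h1 := c.p81 2 2
  have h2 := c.p81 2 4
  linear_combination h + (p 0 2) ^ 9 * h1 - (p 2 3) ^ 9 * h2

theorem pow80 {x : F} (hx : x ^ 81 = x) (h0 : x ≠ 0) : x ^ 80 = 1 := pow80_of hx h0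

/-- all powers -/
def PWl : List Ex := (List.range 80).map PM.Ex.pw

theorem mem_PWl {n : ℕ} (hn : n < 80) : PM.Ex.pw n ∈ PWl := List.mem_map.2 ⟨n, List.mem_range.2 hn, rfl⟩

/-- the block of `t9` -/
def T9c (pl : Plan) : Plan :=
  .alt [.zero, .pw 0, .neg (.pw 0)]
    (.kf (.neg (.add (.add (.k 12) (.mul (.pw 20) (.k 29))) (.k 33)))
    (.kf (.neg (.add (.add (.k 13) (.mul (.pw 60) (.k 29))) (.neg (.k 33))))
    (.kf (.fr (.fr (.k 34)))
    (.kf (.fr (.fr (.k 35))) pl))))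

theorem wp_T9c (c : Ctx g q p m t) {G : Prop} {pl : Plan} {ls : List F} (h : WP g G pl (K38 g p t) ls) :
    WP g G (T9c pl) (K33 g p t) ls := by
  have key : ∀ e ∈ [PM.Ex.zero, .pw 0, .neg (.pw 0)], e.eval g (K33 g p t) [] = t 8 → WP g G (T9c pl) (K33 g p t) ls := by
    intro e he hx
    refine WP_alt (x := t 8) e he hx ?_
    refine WP_kf (x := QQ p 0 3) c.Q03.symm ?_
    refine WP_kf (x := QQ p 0 4) c.Q04.symm ?_
    refine WP_kf (x := QQ p 0 3 ^ 9) ?_ ?_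
    · show (QQ p 0 3 ^ 3) ^ 3 = _
      ring
    refine WP_kf (x := QQ p 0 4 ^ 9) ?_ h
    show (QQ p 0 4 ^ 3) ^ 3 = _
    ring
  rcases c.tr 8 with h8 | h8 | h8
  · exact key .zero (by simp) h8.symm
  · exact key (.pw 0) (by simp) (by rw [h8]; exact pow_zero g)
  · exact key (.neg (.pw 0)) (by simp) (by rw [h8]; show -(g ^ 0) = -1; rw [pow_zero])

/-- with the two dummies -/
def T9 (pl : Plan) : Plan := T9c (.kf .zero (.kf .zero pl))

theorem wp_T9 (c : Ctx g q p m t) {G : Prop} {pl : Plan} {ls : List F} (h : WP g G pl (K40 g p t 0 0) ls) :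
    WP g G (T9 pl) (K33 g p t) ls :=
  wp_T9c c (WP_kf (x := 0) rfl (WP_kf (x := 0) rfl h))

theorem sel_range (ls r : List F) : (List.range ls.length).map (fun j => (ls ++ r).getD j 0) = ls := by
  apply List.ext_getElem
  · simp
  · intro i h1 h2
    simp only [List.getElem_map, List.getElem_range]
    rw [List.getD_eq_getElem _ _ (by rw [List.length_append]; omega), List.getElem_append_left h2]

theorem getD_len (ls r : List F) (i : ℕ) : (ls ++ r).getD (ls.length + i) 0 = r.getD i 0 := by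
  rw [List.getD_eq_getElem?_getD, List.getD_eq_getElem?_getD, List.getElem?_append_right (by omega)]
  congr 2
  omega

/-- the block of a pair of lanes with `first * bar second = sc` -/
def PR (k bk n : ℕ) (pl : Plan) : Plan :=
  .ksp (.k k)
    (.or (.ex (.df .zero (.sel (List.range n ++ [n, n + 2]) pl)))
      (.exn (.df .zero (.sel (List.range n ++ [n + 2, n]) pl))))
    (.exn (.df (.mul (.k bk) (.fr (.fr (.v (n + 1))))) (.sel (List.range n ++ [n, n + 2]) pl)))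

theorem wp_PR {G : Prop} {ks ls : List F} {k bk n : ℕ} {pl : Plan} {x z : F} (hn : ls.length = n) (hx : x ^ 81 = x)
    (hz : z ^ 81 = z) (hk : ks.getD k 0 = x * z ^ 9) (hbk : ks.getD bk 0 = (x * z ^ 9) ^ 9)
    (h : WP g G pl ks (ls ++ [x, z])) : WP g G (PR k bk n pl) ks ls := by
  subst hn
  have e0 : ∀ a b c : F, (ls ++ [a, b, c]).getD ls.length 0 = a := fun a b c => getD_len ls [a, b, c] 0
  have e2 : ∀ a b c : F, (ls ++ [a, b, c]).getD (ls.length + 2) 0 = c := fun a b c => getD_len ls [a, b, c] 2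
  refine WP_ksp ?_ ?_
  · intro h0
    have h0' : x * z ^ 9 = 0 := by rw [← hk]; exact h0
    by_cases hz0 : z = 0
    · refine WP_or_left (WP_ex x hx (WP_df (x := 0) rfl (WP_sel (ls' := ls ++ [x, z]) ?_ h)))
      rw [List.append_assoc, List.map_append]
      show (List.range ls.length).map (fun j => (ls ++ [x, x ^ 79, 0]).getD j 0) ++
        [(ls ++ [x, x ^ 79, 0]).getD ls.length 0, (ls ++ [x, x ^ 79, 0]).getD (ls.length + 2) 0] = _
      rw [sel_range, e0, e2, hz0]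
    · have hx0 : x = 0 := by
        rcases mul_eq_zero.1 h0' with h1 | h1
        · exact h1
        · exact absurd (pow_eq_zero_iff (by norm_num) |>.1 h1) hz0
      refine WP_or_right (WP_exn z (pow80 hz hz0) (WP_df (x := 0) rfl (WP_sel (ls' := ls ++ [x, z]) ?_ h)))
      rw [List.append_assoc, List.map_append]
      show (List.range ls.length).map (fun j => (ls ++ [z, z ^ 79, 0]).getD j 0) ++
        [(ls ++ [z, z ^ 79, 0]).getD (ls.length + 2) 0, (ls ++ [z, z ^ 79, 0]).getD ls.length 0] = _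
      rw [sel_range, e0, e2, hx0]
  · intro h0
    have h0' : x * z ^ 9 ≠ 0 := by rw [← hk]; exact h0
    have hx0 : x ≠ 0 := left_ne_zero_of_mul h0'
    have h80 := pow80 hx hx0
    refine WP_exn x h80 (WP_df (x := z) ?_ (WP_sel (ls' := ls ++ [x, z]) ?_ h))
    · show ks.getD bk 0 * (((ls ++ [x, x ^ 79]).getD (ls.length + 1) 0 ^ 3) ^ 3) = z
      rw [hbk, getD_len]
      show (x * z ^ 9) ^ 9 * (((x ^ 79) ^ 3) ^ 3) = z
      calc (x * z ^ 9) ^ 9 * (((x ^ 79) ^ 3) ^ 3) = (x ^ 80) ^ 9 * z ^ 81 := by ring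
        _ = z := by rw [h80, one_pow, one_mul, hz]
    · rw [List.append_assoc, List.map_append]
      show (List.range ls.length).map (fun j => (ls ++ [x, x ^ 79, z]).getD j 0) ++
        [(ls ++ [x, x ^ 79, z]).getD ls.length 0, (ls ++ [x, x ^ 79, z]).getD (ls.length + 2) 0] = _
      rw [sel_range, e0, e2]

/-! ### the equations of row 1 -/

theorem ctx_al (c : Ctx g q p m t) :
    p 0 0 * p 1 2 ^ 9 + p 0 1 * p 1 1 ^ 9 + p 0 2 * p 0 1 ^ 9 = p 0 3 * p 1 4 ^ 9 + p 0 4 * p 1 3 ^ 9 := by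
  have h := herm_exp' c.four.herm 1 0
  rw [if_neg (by decide), c.sym 1 0, c.sym 2 0, c.sym 3 0, c.sym 4 0] at h
  linear_combination h

theorem ctx_be (c : Ctx g q p m t) :
    p 0 2 * p 1 2 ^ 9 + p 1 2 * p 1 1 ^ 9 + p 2 2 * p 0 1 ^ 9 = p 2 3 * p 1 4 ^ 9 + p 2 4 * p 1 3 ^ 9 := by
  have h := herm_exp' c.four.herm 1 2
  rw [if_neg (by decide), c.sym 1 0, c.sym 3 2, c.sym 4 2] at h
  linear_combination h

end
end Cfsg.Agent.H455.P9
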